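/-
Simple groups with solvable 2-local subgroups and element orders at most six.
-/
import Cfsg.Agent.O6.Defs
import Cfsg.Agent.NG.Defs
import Cfsg.Agent.S0243
import Cfsg.Agent.S0252
import Cfsg.Agent.S0253
import Cfsg.Agent.S0254
import Cfsg.Agent.S0280
import Cfsg.Agent.S1163
import Cfsg.Agent.S2475
import Cfsg.Agent.H14.Mathieu

set_option autoImplicit false

namespace Cfsg.Agent.O6

open Cfsg Subgroup

namespace Known

variable {G : Type*} [Group G] [Finite G]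

theorem eq_one (h : Hyp G) {N : ℕ} (hd : N ∣ 3 * Nat.card G) (h2 : ¬ 2 ∣ N) (h3 : ¬ 3 ∣ N)
    (h5 : ¬ 5 ∣ N) : N = 1 := by
  by_contra h1
  obtain ⟨r, hr, hrN⟩ := Nat.exists_prime_and_dvd h1
  rcases (Nat.Prime.dvd_mul hr).1 (hrN.trans hd) with e | e
  · rw [Nat.prime_dvd_prime_iff_eq hr Nat.prime_three] at e
    exact h3 (e ▸ hrN)
  · rcases h.prime_cases hr e with rfl | rfl | rfl
    exacts [h2 hrN, h3 hrN, h5 hrN]

theorem not_prime (h : Hyp G) {p : ℕ} (hp : p.Prime) (h7 : 7 ≤ p) : ¬ p ∣ Nat.card G := fun e => by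
  rcases h.prime_cases hp e with rfl | rfl | rfl <;> omega

omit [Finite G] in
theorem l2 (h : Hyp G) (hG : NG.IsoL2 G) : Nonempty (G ≃* A5) ∨ Nonempty (G ≃* A6) := by
  obtain ⟨F, _, _, h4, ⟨e⟩⟩ := hG
  obtain ⟨p, hc⟩ := CharP.exists F
  obtain ⟨f, hp, hq⟩ := FiniteField.card F p
  have := Fact.mk hp
  have key : ∀ m, m ∣ p ∨ m ∣ (Fintype.card F - 1) / Nat.gcd 2 (Fintype.card F - 1) ∨
      m ∣ (Fintype.card F + 1) / Nat.gcd 2 (Fintype.card F - 1) → m ≤ 6 := fun m hm => by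
    obtain ⟨x, hx⟩ := (Set.ext_iff.1 (S2475.result p h4) m).2 hm
    rw [← hx, ← e.symm.orderOf_eq]
    exact h _
  have h1 := key p (Or.inl dvd_rfl)
  have h2 := key _ (Or.inr (Or.inr dvd_rfl))
  have h3 : p ∣ Fintype.card F := hq ▸ dvd_pow_self p f.2.ne'
  have h5 : Fintype.card F = 4 ∨ Fintype.card F = 5 ∨ Fintype.card F = 9 := by
    have h6 : Fintype.card F ≤ 12 := by
      have h7 : Nat.gcd 2 (Fintype.card F - 1) ≤ 2 := Nat.gcd_le_left _ two_pos
      have h8 : 0 < Nat.gcd 2 (Fintype.card F - 1) := Nat.gcd_pos_of_pos_left _ two_pos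
      generalize Nat.gcd 2 (Fintype.card F - 1) = d at *
      interval_cases d <;> omega
    have h7 := hp.two_le
    clear key hq e hc
    generalize Fintype.card F = q at *
    interval_cases q <;> interval_cases p <;> simp_all
  rcases h5 with h5 | h5 | h5
  · obtain ⟨e'⟩ := S0252.result h5
    exact Or.inl ⟨e.trans e'⟩
  · obtain ⟨e'⟩ := S0253.result h5
    exact Or.inl ⟨e.trans e'⟩
  · obtain ⟨e'⟩ := S0254.result h5
    exact Or.inr ⟨e.trans e'⟩

theorem sz (h : Hyp G) : ¬ Lie.IsoSuzuki G := by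
  rintro ⟨F, _, _, m, hm, hF, ⟨e⟩⟩
  have hc := (S1163.result hm hF).1
  rw [← Nat.card_congr e.toEquiv] at hc
  obtain ⟨m, rfl⟩ : ∃ k, m = k + 1 := ⟨m - 1, by omega⟩
  have h1 : 2 ^ (2 * (m + 1) + 1) = 8 * 4 ^ m := by ring_nf; rw [mul_comm m 2, pow_mul]; norm_num
  have h3 : 4 ^ m % 3 = 1 := by simp [Nat.pow_mod]
  have h5 : 4 ^ m % 5 = 1 ∨ 4 ^ m % 5 = 4 := by
    obtain ⟨k, rfl | rfl⟩ := Nat.even_or_odd' m
    · left; rw [pow_mul]; simp [Nat.pow_mod]
    · right; rw [pow_succ, pow_mul]; simp [Nat.pow_mod, Nat.mul_mod]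
  have h6 : 0 < 4 ^ m := by positivity
  rw [h1] at hc
  have := eq_one h (N := 8 * 4 ^ m - 1)
    (hc ▸ (((dvd_refl _).mul_left _).mul_right _).mul_left _) (by omega) (by omega) (by omega)
  omega

theorem u3 (h : Hyp G) : ¬ NG.IsoU3Even G := by
  rintro ⟨F, _, _, n, hn, hF, ⟨e⟩⟩
  have hc := S0280.result hF 3 (by norm_num)
  rw [← Nat.card_congr e.toEquiv] at hc
  simp only [Finset.prod_range_succ, Finset.prod_range_zero] at hc
  norm_num [Nat.even_add_one] at hc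
  have h4 : 4 ≤ 2 ^ n := Nat.pow_le_pow_right two_pos hn
  have h2 : 2 ∣ 2 ^ n := dvd_pow_self 2 (by omega)
  clear e hF
  generalize 2 ^ n = q at *
  obtain ⟨k, rfl⟩ : ∃ k, q = k + 1 := ⟨q - 1, by omega⟩
  have h3 : (k + 1) ^ 3 + 1 = (k + 1 + 1) * (k ^ 2 + k + 1) := by ring
  have h5 : Nat.gcd 3 (k + 1 + 1) * Nat.card G =
      (k + 1) ^ 3 * ((k + 1) ^ 2 - 1) * (k + 1 + 1) * (k ^ 2 + k + 1) := by
    refine Nat.eq_of_mul_eq_mul_left (show 0 < k + 1 + 1 by omega) ?_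
    rw [h3] at hc
    linarith
  have h6 : k ^ 2 + k + 1 ∣ 3 * Nat.card G :=
    (Dvd.intro_left _ h5.symm).trans (Nat.mul_dvd_mul_right (Nat.gcd_dvd_left _ _) _)
  have a2 : ¬ 2 ∣ k ^ 2 + k + 1 := by
    have : k % 2 = 1 := by omega
    rw [Nat.dvd_iff_mod_eq_zero]
    simp [Nat.add_mod, Nat.pow_mod, this]
  have a5 : ¬ 5 ∣ k ^ 2 + k + 1 := by
    have : k % 5 < 5 := Nat.mod_lt _ (by norm_num)
    rw [Nat.dvd_iff_mod_eq_zero, Nat.add_mod, Nat.add_mod (k ^ 2), Nat.pow_mod]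
    generalize k % 5 = r at *
    interval_cases r <;> simp
  have a9 : ¬ 9 ∣ k ^ 2 + k + 1 := by
    have : k % 9 < 9 := Nat.mod_lt _ (by norm_num)
    rw [Nat.dvd_iff_mod_eq_zero, Nat.add_mod, Nat.add_mod (k ^ 2), Nat.pow_mod]
    generalize k % 9 = r at *
    interval_cases r <;> simp
  have a13 : 9 ≤ k ^ 2 := Nat.pow_le_pow_left (show 3 ≤ k by omega) 2
  by_cases a3 : 3 ∣ k ^ 2 + k + 1
  · obtain ⟨M, hM⟩ := a3
    have := eq_one h (N := M) ((Dvd.intro_left _ hM.symm).trans h6) (by omega) (by omega) (by omega)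
    omega
  · have := eq_one h h6 a2 a3 a5
    omega

end Known

/-- The simple groups with solvable 2-local subgroups and element orders at most six. -/
theorem Hyp.known {G : Type*} [Group G] [Finite G] (h : Hyp G) (hG : NG.N2List G) :
    Nonempty (G ≃* A5) ∨ Nonempty (G ≃* A6) := by
  rcases hG with hG | hG | hG | ⟨F, _, _, hF, ⟨e⟩⟩ | ⟨F, _, _, hF, ⟨e⟩⟩ | ⟨⟨e⟩⟩ | ⟨⟨e⟩⟩ | hG
  · exact Known.l2 h hG
  · exact absurd hG (Known.sz h)
  · exact absurd hG (Known.u3 h)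
  · have hc := S0243.result hF 3 (by norm_num)
    rw [← Nat.card_congr e.toEquiv, Fin.prod_univ_three] at hc
    norm_num at hc
    exact absurd (by omega) (Known.not_prime h (p := 13) (by norm_num) (by norm_num))
  · have hc := S0280.result (q := 3) hF 3 (by norm_num)
    rw [← Nat.card_congr e.toEquiv] at hc
    simp only [Finset.prod_range_succ, Finset.prod_range_zero] at hc
    norm_num [Nat.even_add_one] at hc
    exact absurd (by omega) (Known.not_prime h (p := 7) (by norm_num) (by norm_num))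
  · refine absurd ?_ (Known.not_prime h (p := 7) (by norm_num) (by norm_num))
    rw [Nat.card_congr e.toEquiv, nat_card_alternatingGroup, Nat.card_eq_fintype_card (α := Fin 7),
      Fintype.card_fin]
    decide
  · refine absurd ?_ (Known.not_prime h (p := 11) (by norm_num) (by norm_num))
    rw [Nat.card_congr e.toEquiv, H14.card_M11]
    norm_num
  · refine absurd ?_ (Known.not_prime h (p := 13) (by norm_num) (by norm_num))
    rw [hG.1]
    norm_num

end Cfsg.Agent.O6
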